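/-
S5806, characteristic two: chunks TP and N2.
-/
import Cfsg.Agent.H10.SP.A
import Cfsg.Agent.H6.SP4
import Cfsg.Agent.S5712

set_option autoImplicit false
set_option linter.unusedSectionVars false
set_option linter.unusedSimpArgs false

namespace H10.SP
open Matrix Cfsg Cfsg.Geo H27.Asch Module Submodule H11.SP H6.SP
open scoped commutatorElement MatrixGroups

universe u
variable {k : Type u} [Field k] [CharP k 2] {G : Type*} [Group G] {P : Subgroup (G6 k)} {π : P →* G}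
  {u w u' w' p x y z t v : V6 k} {c : k}

theorem A2.mv (h : A2 P (c • u) w) : A2 P u (c • w) := h.move fun e => h.ne_l (by rw [e, zero_smul])
theorem A2.mv' (h : A2 P u (c • w)) : A2 P (c • u) w := (A2.mv h.symm).symm

/-- without `Tp` a line has only one special point -/
theorem uniq (hP : P ≤ S6 k) (kt : Kt P) (n : ¬ Tp P) (hx : A2 P p x) (hy : A2 P p y) (f : fm x y ≠ 0) (α : k)
    (hz : A2 P (x + α • p) z) : fm p z = 0 := by
  simp only [Tp, not_forall, not_exists, not_and, not_not] at n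
  obtain ⟨p0, x0, h0, n⟩ := n
  obtain ⟨g, hg, e⟩ := kt.one _ _ _ _ h0 hx
  have n' : ∀ (α : k) z, A2 P (g.val *ᵥ x0 + α • g.val *ᵥ p0) z → fm (g.val *ᵥ p0) z = 0 := fun α z h => by
    have := h.cj hP (P.inv_mem hg)
    rw [mulVec_add, mulVec_smul, inv_mv, inv_mv] at this
    rw [← n α _ this, ← fm_iso (hP hg) p0, mv_inv]
  generalize g.val *ᵥ x0 = x1 at *
  generalize g.val *ᵥ p0 = p1 at *
  have q : ∀ (a b : k) z, b ≠ 0 → A2 P (a • p1 + b • x1) z → fm p1 z = 0 := fun a b z b0 h => by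
    have := n' (a / b) (b • z) (A2.mv (by convert h using 1; match_scalars <;> grind))
    simpa [b0] using this
  obtain ⟨m1, m2⟩ := mem_of_N hx.2.1 e.symm
  obtain ⟨a, b, rfl⟩ := mem_span_pair.1 m1
  obtain ⟨c, d, rfl⟩ := mem_span_pair.1 m2
  by_cases b0 : b = 0
  · subst b0
    have : d ≠ 0 := fun d0 => hx.2.1 (by rw [N_pair, d0]; simp)
    simp [q (c + α * a) d z this (by convert hz using 1; module)]
  · have h1 := q a b y b0 hy
    have h2 := hy.1
    simp [h1, b0] at h2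
    simp [h1, h2] at f

theorem tp : TP.{u} := fun F _ _ _ _ _ P _ hp _ kt t2 => by
  have hP := hp.sp
  have T : Tp P := by
    by_contra n
    let S : Set (V6 F) := {p | ∃ x y, A2 P p x ∧ A2 P p y ∧ fm x y ≠ 0}
    have top : span F S = ⊤ := (irr_of_alg hp.top _ fun g hg v hv => span_induction (p := fun v _ => g.val *ᵥ v ∈ span F S)
      (fun _ (⟨_, _, a, b, f⟩ : _ ∈ S) => subset_span ⟨_, _, a.cj hP hg, b.cj hP hg, by rwa [fm_iso (hP hg)]⟩) (by simp)
      (fun a b _ _ ha hb => by rw [mulVec_add]; exact add_mem ha hb) (fun c a _ ha => by rw [mulVec_smul]; exact smul_mem _ _ ha)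
      hv).resolve_left fun e => by
        obtain ⟨p, x, y, h⟩ := t2
        exact h.1.ne_l ((span_eq_bot.1 e) p ⟨x, y, h⟩)
    obtain ⟨p, x, y, hx, hy, f⟩ := t2
    obtain ⟨p', ⟨x', y', hx', hy', f'⟩, m⟩ : ∃ p' ∈ S, fm p' p ≠ 0 := by
      by_contra! H
      exact hx.ne_l (fm_nd' fun v => mem_perp.2 H v (top ▸ mem_top))
    have adj : ∀ {p p' x y : V6 F}, fm p p' ≠ 0 → A2 P p x → A2 P p y → fm x y ≠ 0 →
        ∃ x y, A2 P p x ∧ A2 P p y ∧ fm x y ≠ 0 ∧ fm x p' = 0 ∧ fm y p' = 0 := fun {p p' x y} m a b f =>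
      ⟨_, _, a.shift (fm x p' / fm p p'), b.shift (fm y p' / fm p p'), by simpa [b.1, fm_sy x p, a.1] using f,
        by simp [m, aa], by simp [m, aa]⟩
    have m' : fm p p' ≠ 0 := by rwa [fm_sy]
    obtain ⟨x, y, hx, hy, f, x0, y0⟩ := adj m' hx hy f
    obtain ⟨x', y', hx', hy', f', x0', y0'⟩ := adj m hx' hy' f'
    have c1 : ∀ {x y x' y'}, A2 P p x → A2 P p y → fm x y ≠ 0 → A2 P p' x' → A2 P p' y' → fm x' y' ≠ 0 → fm x p' = 0 →
        fm x' p = 0 → fm x x' = 0 := fun {x y x' y'} hx hy f hx' hy' f' a b => by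
      by_contra n'
      obtain ⟨g, hg, ν, -, e1, e2, -⟩ := kt.sw _ _ _ _ hx hx' (by simp [pr, a, m', n'])
      have c := hy.cj hP hg
      rw [e1, N_mv, fm_sy p x', b, zero_smul, zero_add, smul_smul] at c
      have := uniq hP kt n hx' hy' f' 0 (by simpa using A2.mv c)
      have c0 : ν * fm p p' ≠ 0 := fun e => c.ne_l (by rw [e, zero_smul])
      rw [fm_smul_r, mul_eq_zero, or_iff_right c0] at this
      rw [← fm_iso (hP hg), e2, N_mv, a] at f
      simp [this] at f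
    have fs : ∀ {a b : V6 F}, fm a b ≠ 0 → fm b a ≠ 0 := fun h => by rwa [fm_sy]
    have a1 := c1 hx hy f hx' hy' f' x0 x0'
    have a2 := c1 hx hy f hy' hx' (fs f') x0 y0'
    have a3 := c1 hy hx (fs f) hx' hy' f' y0 x0'
    have a4 := c1 hy hx (fs f) hy' hx' (fs f') y0 y0'
    have c2 : ∀ {x y x'}, A2 P p x → fm x y ≠ 0 → A2 P p' x' → fm x p' = 0 → fm x' p = 0 → fm x x' = 0 → fm y x' = 0 →
        A2 P x (fm p p' • x') := fun {x y x'} hx f hx' a b c d => hx.symm.t3 hP hx'.symm ⟨c, a, by rwa [fm_sy], m', fun s => by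
      obtain ⟨e, rfl⟩ := mem_span_singleton.1 s
      rw [fm_smul_r, fm_sy, mul_eq_zero, or_iff_left f] at d
      exact hx'.symm.ne_l (by rw [d, zero_smul])⟩
    exact f' (uniq hP kt n (A2.mv' (c2 hx f hx' x0 x0' a1 a3)).symm (A2.mv' (c2 hy (fs f) hx' y0 x0' a3 a1)).symm
      (by simp [m', f]) 0 (by simpa using A2.mv' (c2 hx f hy' x0 y0' a2 a4)))
  refine ⟨T, fun ⟨p, x, t, hx, ht, f, n⟩ => ?_⟩
  obtain ⟨α, z, hz, m⟩ := T p x hx
  have m' : fm z p ≠ 0 := by rwa [fm_sy]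
  refine ⟨_, _, _, _, hz, (ht.shift (fm z t / fm z p)).symm, by simp [f, ht.1, fm_sy x p, hx.1], by simp [fm_sy x p, hx.1],
    by simp [m', aa], m', fun s => n ?_⟩
  obtain ⟨e, s⟩ := mem_span_singleton.1 s
  exact mem_span_pair.2 ⟨e * α - fm z t / fm z p, e, by linear_combination (norm := module) s⟩

/-- with full root subgroups every point of a line is special -/
theorem spc (hP : P ≤ S6 k) (T : Tp P) (ek : EK P ⊤) (hx : A2 P p x) : ∃ y, A2 P p y ∧ fm x y ≠ 0 := by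
  obtain ⟨α, z, hz, m⟩ := T p x hx
  obtain ⟨β, y, hy, m'⟩ := T _ _ (hx.shift α).symm
  have xz := hz.1
  by_cases b : β = 0
  · subst b
    have hy : A2 P p y := by simpa using hy
    exact ⟨y, hy, by simpa [hy.1] using m'⟩
  obtain ⟨-, -, g, hg, e⟩ := ((ek _ _ hz (β / fm p z)).1 trivial).resolve_left (div_ne_zero b m)
  have c := hy.cj hP hg
  have px : fm p (x + α • p) = 0 := by simp [hx.1]
  rw [← fm_iso (hP hg)] at m'
  generalize hX : x + α • p = X at *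
  have e1 : g.val *ᵥ (p + β • X) = p := by
    simp only [e, r_mv, fm_add_l, fm_smul_l, fm_smul_r, xz, px, fm_self]; match_scalars <;> grind
  have e2 : g.val *ᵥ X = X := by simp [e, r_mv, xz]
  rw [e1] at c
  rw [e2, ← hX] at m'
  exact ⟨_, c, by simpa [c.1] using m'⟩

theorem perp1 (f : Fin 5 → V6 k) (li : LinearIndependent k f) (hp : p ≠ 0) (h : ∀ i, fm (f i) p = 0) (hv : ∀ i, fm (f i) v = 0) :
    v ∈ span k {p} := by
  have e := finrank_span_eq_card li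
  have r := rk_perp (span k (Set.range f))
  rw [Submodule.eq_of_le_of_finrank_eq (S₂ := (fB k).orthogonal (span k (Set.range f))) (span_le.2 ?_) ?_]
  · exact mem_perp.2 fun _ ⟨i, hi⟩ => hi ▸ hv i
  · rintro _ ⟨⟩; exact mem_perp.2 fun _ ⟨i, hi⟩ => hi ▸ h i
  · rw [finrank_span_singleton hp, r]; simp only [Set.finrank, Fintype.card_fin] at e; rw [e]

theorem mem_pres {g : G6 k} : g ∈ preserving (Units.coeHom (M6 k))
    (fun u v : V6 k => ∑ i : Fin 3, (u (.inl i) * v (.inr i) + u (.inr i) * v (.inl i))) ↔ g ∈ S6 k := by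
  have : ∀ u v : V6 k, ∑ i : Fin 3, (u (.inl i) * v (.inr i) + u (.inr i) * v (.inl i)) = fm u v := fun u v => by
    rw [fm_ap]; exact Finset.sum_congr rfl fun _ _ => by grind
  rw [mem_S6]; simp only [this]; rfl

/-- a large subgroup of the unipotent radical of a point stabiliser -/
theorem big [Fintype k] (hp : Rp P π) (p0 : p ≠ 0) (hc : Nat.card (Qp P p) = Fintype.card k ^ 4) : False := by
  have fs : ∀ u v : V6 k, ∑ i : Fin 3, (u (.inl i) * v (.inr i) + u (.inr i) * v (.inl i)) = fm u v := fun u v => by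
    rw [fm_ap]; exact Finset.sum_congr rfl fun _ _ => by grind
  rcases Cfsg.Agent.S5712.result (n := 3) (by omega) p p0 ((Qp P p).map P.subtype)
    (fun _ ⟨g, _, e⟩ => mem_pres.2 (e ▸ hp.sp g.2)) (fun H hH => by
      have hs : ∀ g : H, g.1 ∈ S6 k := fun g => mem_pres.1 ((hH _).1 g.2).1
      rintro _ ⟨g, ⟨φ, c, a, e⟩, rfl⟩
      refine ⟨⟨g.1, (hH _).2 ⟨mem_pres.2 (hp.sp g.2), by simp [e, q_mv, a]⟩⟩, H1.le_pCore (N := Qp H p)
        ⟨fun n ⟨φ, c, a, e⟩ h => ⟨h.1.val *ᵥ φ, c, by rw [← ((hH _).1 h.2).2, fm_iso (hs h), a], ?_⟩⟩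
        (fun g => ⟨1, Subtype.ext (by simpa [sq] using Qp_sq g.2)⟩) ⟨φ, c, a, e⟩, rfl⟩
      change h.1.val * n.1.val * (h.1⁻¹).val = _
      rw [e, mul_add, mul_add, add_mul, add_mul, N_cj (hs h), mul_smul_comm, smul_mul_assoc, E_cj (hs h), ((hH _).1 h.2).2, mul_one,
        Units.mul_inv])
    (by rw [Subgroup.card_map_of_injective P.subtype_injective, hc]) (fun _ ⟨g, _, e⟩ => hp.ntv _ (e ▸ g.2)) P
    (Subgroup.map_subtype_le _) (fun g hg => mem_pres.2 (hp.sp hg)) (irr_of_alg hp.top) with e | ⟨Q, q, e⟩ | ⟨-, e, -⟩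
  · have s : (1 + E p p) * (1 + E p p) = 1 := by simpa [N_zero_r, aa] using q_mul (p := p) (φ := 0) (ψ := 0) (by simp) (by simp) 1 1
    refine one_ne_zero (hp.ntv.eq (c := 1) p0 (g := ⟨_, _, s, s⟩) (e ▸ mem_pres.2 (mem_S6.2 fun a b => ?_)) (by simp))
    simp only [t_mv, fm_add_l, fm_add_r, fm_smul_l, fm_smul_r, fm_self, fm_sy p b]; grind
  · refine hp.nq ⟨Q, fun c v => by rw [Q.map_smul, sq, smul_eq_mul], fun u v => by
      rw [← fs, ← show _ = ∑ i : Fin 3, _ from q u v, QuadraticMap.polar]; ring, fun g hg v => ?_⟩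
    exact (show g ∈ isometryGroup k Q from e.elim (· ▸ hg) fun e => ((e g).1 hg).1) v v
  · omega

theorem n2 : N2.{u} := fun F _ _ _ _ _ P _ hp _ kt T ⟨p, x, t, hx, ht, f, n⟩ ek => by
  have hP := hp.sp
  have sc : ∀ {x} (c : F), A2 P p x → Qm P p (c • x) 0 := fun c h => by
    rcases (ek _ _ h c).1 trivial with rfl | h
    exacts [by simpa using Qm.zero, h.qm]
  obtain ⟨y, hy, a⟩ := spc hP T ek hx
  obtain ⟨s, hs, xs, ys⟩ : ∃ s, A2 P p s ∧ fm s x = 0 ∧ fm s y = 0 := by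
    refine ⟨t + (fm t y / fm x y) • x, Qm.a2 (by simpa [fm_sy t x, f] using ht.qm.mul (sc (fm t y / fm x y) hx)) (fun m => n ?_)
      hx.ne_l, by simp [fm_sy t x, f], by simp [a, aa]⟩
    obtain ⟨e, m⟩ := mem_span_singleton.1 m
    exact mem_span_pair.2 ⟨e, -(fm t y / fm x y), by linear_combination (norm := module) m⟩
  obtain ⟨z, hz, b⟩ := spc hP T ek hs
  obtain ⟨v, hv, -⟩ := dual hx.2.1
  let φ : Qp P p → F × F × F × F := fun g => let r := g.1.1.val *ᵥ v + v; (fm r x, fm r y, fm r s, fm r z)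
  have φe : ∀ (g : Qp P p) ψ (c : F), g.1.1.val = 1 + N p ψ + c • E p p → φ g = (fm ψ x, fm ψ y, fm ψ s, fm ψ z) := fun g ψ c e => by
    simp only [φ, e, q_mv, hv, fm_add_l, fm_smul_l, hx.1, hy.1, hs.1, hz.1, Prod.mk.injEq]; grind
  refine big hp hx.ne_l ((Nat.card_eq_of_bijective φ ⟨fun g h e => ?_, fun ⟨c1, c2, c3, c4⟩ => ?_⟩).trans (by simp; ring))
  · obtain ⟨ψ, c, a1, e1⟩ := g.2
    obtain ⟨χ, d, a2, e2⟩ := h.2
    rw [φe g ψ c e1, φe h χ d e2] at e
    simp only [Prod.mk.injEq] at e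
    have m : ψ + χ ∈ span F {p} := perp1 ![p, x, y, s, z] (Fintype.linearIndependent_iff.2 fun g e i => by
      have e1 := congrArg (fm s) e
      have e2 := congrArg (fm x) e
      have e3 := congrArg (fm y) e
      have e4 := congrArg (fm z) e
      simp [Fin.sum_univ_five, xs, ys, b, fm_sy _ p, hx.1, hy.1, hs.1, hz.1] at e1
      simp [Fin.sum_univ_five, e1, fm_sy x s, xs, a, fm_sy _ p, hx.1] at e2
      simp [Fin.sum_univ_five, e1, fm_sy y s, ys, fm_sy y x, a, fm_sy _ p, hy.1] at e3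
      simp [Fin.sum_univ_five, e1, e2, e3, fm_sy z s, b, fm_sy _ p, hz.1] at e4
      simp [Fin.sum_univ_five, e1, e2, e3, e4, hx.ne_l] at e
      fin_cases i <;> simp [*]) hx.ne_l (fun i => by fin_cases i <;> simp [fm_sy _ p, hx.1, hy.1, hs.1, hz.1])
      fun i => by fin_cases i <;> simp [a1, a2, fm_sy _ ψ, fm_sy _ χ, e, aa]
    have z0 := Qm.tv hp.ntv hx.ne_l (Qm.mul ⟨a1, _, g.1.2, e1⟩ ⟨a2, _, h.1.2, e2⟩) m
    obtain ⟨κ, m⟩ := mem_span_singleton.1 m
    have : g.1 * h.1 = 1 := Subtype.ext (Units.ext (by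
      rw [Subgroup.coe_mul, Units.val_mul, e1, e2, q_mul a1 a2, z0, ← m, N_smul_r, N_self]; simp))
    exact Subtype.ext (mul_right_cancel (this.trans (Qp_sq h.2).symm))
  · obtain ⟨δ, h1⟩ : ∃ δ, δ * fm s z = c3 := ⟨_, div_mul_cancel₀ _ b⟩
    obtain ⟨β, h2⟩ : ∃ β, β * fm x y = c1 + δ * fm x z := ⟨_, div_mul_cancel₀ _ a⟩
    obtain ⟨α, h3⟩ : ∃ α, α * fm x y = c2 + δ * fm y z := ⟨_, div_mul_cancel₀ _ a⟩
    obtain ⟨γ, h4⟩ : ∃ γ, γ * fm s z = c4 + α * fm x z + β * fm y z := ⟨_, div_mul_cancel₀ _ b⟩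
    obtain ⟨a1, g, hg, e⟩ := (((sc α hx).mul (sc β hy)).mul (sc γ hs)).mul (sc δ hz)
    refine ⟨⟨⟨g, hg⟩, _, _, a1, e⟩, (φe _ _ _ e).trans ?_⟩
    simp only [fm_add_l, fm_smul_l, fm_self, xs, ys, fm_sy x s, fm_sy y s, fm_sy y x, fm_sy z]
    grind

end H10.SP
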